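import Mathlib
import Cfsg.Prelude.Def_LieTypeDatum
import Cfsg.Prelude.Def_Amalgam
import Cfsg.Prelude.Def_CaseTheorems
import Cfsg.Agent.H98.Basic

/-! # S3694 (tower SIM): interface of the chapters. Proofs: `blueprints/SIM.md`. -/

set_option autoImplicit false

namespace H0.Sim

open Subgroup Cfsg H98 Matrix
open scoped commutatorElement

universe u v

/-! ### The abstract configuration -/

/-- `H` is a maximal subgroup of `G`, of characteristic `p`, not containing `N`; `A` is a minimal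
normal subgroup of `H`, and the conjugate `cj g A` lies in `O_p(H)`. -/
structure Am {X : Type*} [Group X] (N G H A : Subgroup X) (p : ℕ) (g : X) : Prop where
  pp : p.Prime
  NG : N ≤ G
  nN : G ≤ normalizer (N : Set X)
  HG : H < G
  mx : ∀ K : Subgroup X, H ≤ K → K ≤ G → K = H ∨ K = G
  nH : ¬ N ≤ H
  ch : ∀ x ∈ H, x ∈ centralizer (pCoreOf p H : Set X) → x ∈ pCoreOf p H
  AQ : A ≤ pCoreOf p H
  nA : H ≤ normalizer (A : Set X)
  ne : A ≠ ⊥
  mn : ∀ A₁ : Subgroup X, A₁ ≤ A → H ≤ normalizer (A₁ : Set X) → A₁ = ⊥ ∨ A₁ = A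
  gN : g ∈ N
  BQ : cj g A ≤ pCoreOf p H
  Bne : cj g A ≠ A
  nb : ∀ h ∈ H, cj h (cj g A) ≤ normalizer (cj g A : Set X)

def JobAM : Prop := ∀ (G : Type u) (Ω : Type v) [Group G] [Finite G] [MulAction G Ω] [FaithfulSMul G Ω] [Finite Ω]
  (N : Subgroup G), N.Normal → N ≠ ⊥ → MulAction.IsPreprimitive G Ω → ∀ (a b : Ω) (d : ℕ),
  Nat.card (MulAction.orbit (MulAction.stabilizer G a) b) = d → 2 ≤ d →
  d.factorial * (d - 1).factorial ^ d < Nat.card (MulAction.stabilizer G a) →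
  31104 < Nat.card (MulAction.stabilizer G b) ∧
    ∃ (A : Subgroup G) (p : ℕ) (g : G), Am N ⊤ (MulAction.stabilizer G b) A p g

/-- Transport into the automorphism group of a model `T` of the socle. -/
def JobTR : Prop := ∀ (G : Type u) [Group G] [Finite G] (N H A : Subgroup G) (p : ℕ) (g : G),
  N.Normal → centralizer (N : Set G) = ⊥ → Am N ⊤ H A p g →
  ∀ (T : Type) [Group T], Nonempty (N ≃* T) →
  ∃ (G' H' A' : Subgroup (MulAut T)) (g' : MulAut T), Am (Inn T) G' H' A' p g' ∧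
    Nat.card H' = Nat.card H

/-! ### The matrix configuration -/

section Mat

variable (n : ℕ) (F : Type) [Field F]

abbrev Mt : Type := Matrix (Fin n) (Fin n) F

/-- `u = true`: unitary, `u = false`: linear. -/
def Gam (u : Bool) (q : ℕ) : Subgroup (GL (Fin n) F) := if u then GU n F q else ⊤

def Sg (u : Bool) (q : ℕ) : Subgroup (GL (Fin n) F) :=
  Gam n F u q ⊓ (Matrix.GeneralLinearGroup.det : GL (Fin n) F →* Fˣ).ker

def Zg (u : Bool) (q : ℕ) : Subgroup (GL (Fin n) F) := Gam n F u q ⊓ center (GL (Fin n) F)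

/-- The parameters of a simple linear or unitary group. -/
structure Par [Fintype F] (u : Bool) (q : ℕ) : Prop where
  card : Fintype.card F = if u then q ^ 2 else q
  two : 2 ≤ n
  n2 : n = 2 → u = false ∧ 4 ≤ q
  n3 : u = true → ¬ (n = 3 ∧ q = 2)

/-- A semilinear automorphism (`a = false`) or anti-automorphism (`a = true`) of the matrix ring. -/
structure Jm where
  c : GL (Fin n) F
  σ : F ≃+* F
  a : Bool

variable {n F}

noncomputable def th (j : Jm n F) (m : Mt n F) : Mt n F :=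
  (j.c : Mt n F) * (if j.a then (m.map j.σ)ᵀ else m.map j.σ) * ((j.c⁻¹ : GL (Fin n) F) : Mt n F)

def Ok (u : Bool) (q : ℕ) (j : Jm n F) : Prop :=
  j.c ∈ Gam n F u q ∧ (j.a = true → u = false ∧ 3 ≤ n)

def mat (E : Subgroup (GL (Fin n) F)) : Set (Mt n F) := {m | ∃ e ∈ E, (e : Mt n F) = m}

def Iv (Θ : Set (Jm n F)) (X : Set (Mt n F)) : Prop := ∀ j ∈ Θ, ∀ m ∈ X, th j m ∈ X

/-- Conjugation by `s` keeps the set `X`. -/
def St (s : GL (Fin n) F) (X : Set (Mt n F)) : Prop :=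
  ∀ m ∈ X, (s : Mt n F) * m * ((s⁻¹ : GL (Fin n) F) : Mt n F) ∈ X

structure Cf0 [Fintype F] (u : Bool) (q p : ℕ) (Θ : Set (Jm n F))
    (H Q E : Subgroup (GL (Fin n) F)) : Prop where
  par : Par n F u q
  pp : p.Prime
  ok : ∀ j ∈ Θ, Ok u q j
  inn : ∀ h ∈ H, (⟨h, RingEquiv.refl F, false⟩ : Jm n F) ∈ Θ
  ZE : Zg n F u q ≤ E
  EQ : E ≤ Q
  QH : Q ≤ H
  HG : H ≤ Gam n F u q
  ivH : Iv Θ (mat H)
  ivQ : Iv Θ (mat Q)
  ivE : Iv Θ (mat E)
  mp : ∀ X : Set (Mt n F), Iv Θ X → (∃ s ∈ Sg n F u q, ¬ St s X) →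
    ∀ s ∈ Sg n F u q, St s X → s ∈ H
  ne : ¬ E ≤ Zg n F u q
  mn : ∀ E₁ : Subgroup (GL (Fin n) F), Zg n F u q ≤ E₁ → E₁ ≤ E → Iv Θ (mat E₁) →
    E₁ = Zg n F u q ∨ E₁ = E
  pQ : ∀ y ∈ Q, ∃ k : ℕ, y ^ p ^ k ∈ Zg n F u q
  pE : ∀ e ∈ E, e ^ p ∈ Zg n F u q
  cE : ∀ e ∈ E, ∀ y ∈ Q, ⁅e, y⁆ ∈ Zg n F u q
  ch : ∀ h ∈ H, (∀ y ∈ Q, ⁅h, y⁆ ∈ Zg n F u q) → h ∈ Q

structure Cf [Fintype F] (u : Bool) (q p : ℕ) (Θ : Set (Jm n F))
    (H Q E : Subgroup (GL (Fin n) F)) (g : GL (Fin n) F) : Prop extends Cf0 u q p Θ H Q E where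
  gS : g ∈ Sg n F u q
  BQ : cj g E ≤ Q
  Bne : cj g E ≠ E
  nb1 : ∀ h ∈ H, cj h (cj g E) ≤ normalizer (cj g E : Set (GL (Fin n) F))
  nb2 : ∀ j ∈ Θ, ∀ b ∈ cj g E, St b (th j '' mat (cj g E))

/-- An outer map that centralises `H ⊓ S` modulo scalars. -/
structure Out (u : Bool) (q : ℕ) (H : Subgroup (GL (Fin n) F)) (j : Jm n F) : Prop where
  ok : Ok u q j
  out : j.σ ≠ RingEquiv.refl F ∨ j.a = true
  cen : ∀ s ∈ H ⊓ Sg n F u q, ∃ z ∈ Zg n F u q,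
    th j (s : Mt n F) = ((z * (if j.a then s⁻¹ else s) : GL (Fin n) F) : Mt n F)

def Small (u : Bool) (q : ℕ) (H : Subgroup (GL (Fin n) F)) : Prop :=
  ∀ r f : ℕ, r.Prime → q = r ^ f → Nat.card H * (2 * f) ≤ 31104 * Nat.card (Zg n F u q)

end Mat

abbrev PL (n : ℕ) (F : Type) [Field F] : Type := Matrix.ProjectiveSpecialLinearGroup (Fin n) F

/-! ### Bridges -/

def JobBrL : Prop := ∀ (n : ℕ) (F : Type) [Field F] [Fintype F] (q : ℕ), Par n F false q →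
  ∀ (G H A : Subgroup (MulAut (PL n F))) (p : ℕ) (g : MulAut (PL n F)),
  Am (Inn (PL n F)) G H A p g → A ≤ inndiagPSL n F →
  ∃ (Θ : Set (Jm n F)) (H₀ Q E : Subgroup (GL (Fin n) F)) (g₀ : GL (Fin n) F),
    Cf false q p Θ H₀ Q E g₀ ∧ (Small false q H₀ → Nat.card H ≤ 31104)

def JobBrL0 : Prop := ∀ (n : ℕ) (F : Type) [Field F] [Fintype F] (q : ℕ), Par n F false q →
  ∀ (G H A : Subgroup (MulAut (PL n F))) (p : ℕ) (g : MulAut (PL n F)),
  Am (Inn (PL n F)) G H A p g → ¬ A ≤ inndiagPSL n F → p = ringChar F →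
  ∃ (Θ : Set (Jm n F)) (H₀ Q E : Subgroup (GL (Fin n) F)) (j : Jm n F),
    Cf0 false q p Θ H₀ Q E ∧ Out false q H₀ j

def JobBrU : Prop := ∀ (n : ℕ) (F : Type) [Field F] [Fintype F] (q : ℕ), Par n F true q →
  ∀ (G H A : Subgroup (MulAut (PSU n F q))) (p : ℕ) (g : MulAut (PSU n F q)),
  Am (Inn (PSU n F q)) G H A p g → A ≤ inndiagPSU n F q →
  ∃ (Θ : Set (Jm n F)) (H₀ Q E : Subgroup (GL (Fin n) F)) (g₀ : GL (Fin n) F),
    Cf true q p Θ H₀ Q E g₀ ∧ (Small true q H₀ → Nat.card H ≤ 31104)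

def JobBrU0 : Prop := ∀ (n : ℕ) (F : Type) [Field F] [Fintype F] (q : ℕ), Par n F true q →
  ∀ (G H A : Subgroup (MulAut (PSU n F q))) (p : ℕ) (g : MulAut (PSU n F q)),
  Am (Inn (PSU n F q)) G H A p g → ¬ A ≤ inndiagPSU n F q → p = ringChar F →
  ∃ (Θ : Set (Jm n F)) (H₀ Q E : Subgroup (GL (Fin n) F)) (j : Jm n F),
    Cf0 true q p Θ H₀ Q E ∧ Out true q H₀ j

/-! ### Chapter OUT -/

def JobOutL : Prop := ∀ (n : ℕ) (F : Type) [Field F] [Fintype F] (q : ℕ), Par n F false q →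
  ∀ (G H A : Subgroup (MulAut (PL n F))) (p : ℕ) (g : MulAut (PL n F)),
  Am (Inn (PL n F)) G H A p g → ¬ A ≤ inndiagPSL n F → p ≠ ringChar F → Nat.card H ≤ 31104

def JobOutU : Prop := ∀ (n : ℕ) (F : Type) [Field F] [Fintype F] (q : ℕ), Par n F true q →
  ∀ (G H A : Subgroup (MulAut (PSU n F q))) (p : ℕ) (g : MulAut (PSU n F q)),
  Am (Inn (PSU n F q)) G H A p g → ¬ A ≤ inndiagPSU n F q → p ≠ ringChar F → Nat.card H ≤ 31104

/-! ### Chapters D and X -/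

def JobD (u : Bool) : Prop := ∀ (n : ℕ) (F : Type) [Field F] [Fintype F] (q : ℕ) (Θ : Set (Jm n F))
  (H Q E : Subgroup (GL (Fin n) F)) (g : GL (Fin n) F), ¬ Cf u q (ringChar F) Θ H Q E g

def JobD0 (u : Bool) : Prop := ∀ (n : ℕ) (F : Type) [Field F] [Fintype F] (q : ℕ) (Θ : Set (Jm n F))
  (H Q E : Subgroup (GL (Fin n) F)) (j : Jm n F), Cf0 u q (ringChar F) Θ H Q E → ¬ Out u q H j

/-- `E` is not abelian. -/
def JobXS : Prop := ∀ (n : ℕ) (F : Type) [Field F] [Fintype F] (u : Bool) (q p : ℕ) (Θ : Set (Jm n F))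
  (H Q E : Subgroup (GL (Fin n) F)) (g : GL (Fin n) F), Cf u q p Θ H Q E g → p ≠ ringChar F →
  (∃ a ∈ E, ∃ b ∈ E, a * b ≠ b * a) → Small u q H

/-- `E` is abelian. -/
def JobXA : Prop := ∀ (n : ℕ) (F : Type) [Field F] [Fintype F] (u : Bool) (q p : ℕ) (Θ : Set (Jm n F))
  (H Q E : Subgroup (GL (Fin n) F)) (g : GL (Fin n) F), Cf u q p Θ H Q E g → p ≠ ringChar F →
  (∀ a ∈ E, ∀ b ∈ E, a * b = b * a) → Small u q H

/-! ### Shared tools for XS and XA -/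

/-- No quasisimple subgroup of `H` is normalised by `Q`. -/
def JobNC : Prop := ∀ (n : ℕ) (F : Type) [Field F] [Fintype F] (u : Bool) (q p : ℕ) (Θ : Set (Jm n F))
  (H Q E L : Subgroup (GL (Fin n) F)), Cf0 u q p Θ H Q E → L ≤ H → IsQuasisimple L →
  ¬ Q ≤ normalizer (L : Set (GL (Fin n) F))

def JobQSL : Prop := ∀ (k : ℕ) (K : Type) [Field K] [Fintype K], 2 ≤ k →
  ¬ (k = 2 ∧ Fintype.card K ≤ 3) → IsQuasisimple (commutator (GL (Fin k) K))

def JobQSU : Prop := ∀ (k : ℕ) (K : Type) [Field K] [Fintype K] (q : ℕ), Fintype.card K = q ^ 2 →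
  2 ≤ k → ¬ (k = 2 ∧ q ≤ 3) → ¬ (k = 3 ∧ q = 2) → IsQuasisimple (commutator (GU k K q))

/-- `S` is quasisimple and its centraliser in the matrix ring is scalar. -/
def JobSQ : Prop := ∀ (n : ℕ) (F : Type) [Field F] [Fintype F] (u : Bool) (q : ℕ), Par n F u q →
  IsQuasisimple (Sg n F u q) ∧
  (∀ Y : Subgroup (GL (Fin n) F), Y ≤ Gam n F u q → Sg n F u q ≤ normalizer (Y : Set (GL (Fin n) F)) →
    Y ≤ Zg n F u q ∨ Sg n F u q ≤ Y) ∧
  ∀ m : Mt n F, (∀ s ∈ Sg n F u q, (s : Mt n F) * m = m * s) → ∃ c : F, m = Matrix.scalar (Fin n) c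

def JobStL : Prop := ∀ (C : Type) [Ring C] [Finite C] [IsSimpleRing C],
  ∃ (K : Type) (_ : Field K) (_ : Fintype K) (k : ℕ), 1 ≤ k ∧ Nonempty (C ≃+* Mt k K)

/-- An involution of the second kind of a finite simple ring is the standard adjoint. -/
def JobStU : Prop := ∀ (C : Type) [Ring C] [Finite C] [IsSimpleRing C] (st : C → C),
  (∀ a b, st (a + b) = st a + st b) → (∀ a b, st (a * b) = st b * st a) → (∀ a, st (st a) = a) →
  (∃ z : C, (∀ a, z * a = a * z) ∧ st z ≠ z) →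
  ∃ (K : Type) (_ : Field K) (_ : Fintype K) (k q : ℕ) (φ : C ≃+* Mt k K), 1 ≤ k ∧
    Fintype.card K = q ^ 2 ∧ ∀ a, φ (st a) = ((φ a).map (· ^ q))ᵀ

theorem top (am : JobAM.{u, v}) (tr : JobTR.{u}) (bl : JobBrL) (bl0 : JobBrL0) (bu : JobBrU)
    (bu0 : JobBrU0) (ol : JobOutL) (ou : JobOutU) (dd : ∀ u, JobD u) (d0 : ∀ u, JobD0 u)
    (xs : JobXS) (xa : JobXA) {G : Type u} {Ω : Type v} [Group G] [Finite G] [MulAction G Ω]
    [FaithfulSMul G Ω] [Finite Ω] (N : Subgroup G) (hNn : N.Normal) (hNs : IsSimpleGroup N)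
    (hNc : centralizer (N : Set G) = ⊥) (hsoc : IsPSL N ∨ IsPSU N)
    (hprim : MulAction.IsPreprimitive G Ω) (a b : Ω) (d : ℕ)
    (hd : Nat.card (MulAction.orbit (MulAction.stabilizer G a) b) = d) (h2 : 2 ≤ d) :
    Nat.card (MulAction.stabilizer G a) ≤ d.factorial * (d - 1).factorial ^ d := by
  by_contra hlt
  have hN : N ≠ ⊥ := (Subgroup.nontrivial_iff_ne_bot N).1 hNs.toNontrivial
  obtain ⟨hbig, A, p, g, hA⟩ := am G Ω N hNn hN hprim a b d hd h2 (not_le.1 hlt)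
  have key : ∀ (n : ℕ) (F : Type) [Field F] [Fintype F] (u : Bool) (q : ℕ) (Θ : Set (Jm n F))
      (H Q E : Subgroup (GL (Fin n) F)) (g : GL (Fin n) F), Cf u q p Θ H Q E g → Small u q H := by
    intro n F _ _ u q Θ H Q E g c
    by_cases hp : p = ringChar F
    · exact absurd (hp ▸ c) (dd u n F q Θ H Q E g)
    by_cases hab : ∀ a ∈ E, ∀ b ∈ E, a * b = b * a
    · exact xa n F u q p Θ H Q E g c hp hab
    · push Not at hab
      exact xs n F u q p Θ H Q E g c hp hab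
  rcases hsoc with ⟨F, _, _, n, h1, h3, e⟩ | ⟨F, _, _, n, q, h1, h3, h4, e⟩
  · have P : Par n F false (Fintype.card F) := ⟨by simp, h1, fun h => ⟨rfl, h3 h⟩, by simp⟩
    obtain ⟨G', H', A', g', hA', hc⟩ := tr G N _ A p g hNn hNc hA _ e
    refine absurd (hc ▸ (?_ : Nat.card H' ≤ 31104)) (not_le.2 hbig)
    by_cases hi : A' ≤ inndiagPSL n F
    · obtain ⟨Θ, H₀, Q, E, g₀, c, hs⟩ := bl n F _ P G' H' A' p g' hA' hi
      exact hs (key n F _ _ Θ H₀ Q E g₀ c)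
    by_cases hp : p = ringChar F
    · obtain ⟨Θ, H₀, Q, E, j, c, o⟩ := bl0 n F _ P G' H' A' p g' hA' hi hp
      exact absurd o (d0 false n F _ Θ H₀ Q E j (hp ▸ c))
    · exact ol n F _ P G' H' A' p g' hA' hi hp
  · have P : Par n F true q := ⟨by simpa using h1, by omega, fun h => by omega, fun _ => h4⟩
    obtain ⟨G', H', A', g', hA', hc⟩ := tr G N _ A p g hNn hNc hA _ e
    refine absurd (hc ▸ (?_ : Nat.card H' ≤ 31104)) (not_le.2 hbig)
    by_cases hi : A' ≤ inndiagPSU n F q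
    · obtain ⟨Θ, H₀, Q, E, g₀, c, hs⟩ := bu n F _ P G' H' A' p g' hA' hi
      exact hs (key n F _ _ Θ H₀ Q E g₀ c)
    by_cases hp : p = ringChar F
    · obtain ⟨Θ, H₀, Q, E, j, c, o⟩ := bu0 n F _ P G' H' A' p g' hA' hi hp
      exact absurd o (d0 true n F _ Θ H₀ Q E j (hp ▸ c))
    · exact ou n F _ P G' H' A' p g' hA' hi hp

end H0.Sim
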