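import Cfsg.Agent.H0.SimSpec

/-! # S3694 (tower SIM): the linear bridge and chapter D with one more field. -/

set_option autoImplicit false

namespace H0.Sim

open Subgroup Cfsg H98 Matrix

universe u v

/-- `Θ` is closed under left multiplication by `H`. -/
def Cl {n : ℕ} {F : Type} [Field F] (Θ : Set (Jm n F)) (H : Subgroup (GL (Fin n) F)) : Prop :=
  ∀ j ∈ Θ, ∀ h ∈ H, (⟨h * j.c, j.σ, j.a⟩ : Jm n F) ∈ Θ

def JobBrL2 : Prop := ∀ (n : ℕ) (F : Type) [Field F] [Fintype F] (q : ℕ), Par n F false q →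
  ∀ (G H A : Subgroup (MulAut (PL n F))) (p : ℕ) (g : MulAut (PL n F)),
  Am (Inn (PL n F)) G H A p g → A ≤ inndiagPSL n F →
  ∃ (Θ : Set (Jm n F)) (H₀ Q E : Subgroup (GL (Fin n) F)) (g₀ : GL (Fin n) F),
    Cf false q p Θ H₀ Q E g₀ ∧ Cl Θ H₀ ∧ (Small false q H₀ → Nat.card H ≤ 31104)

def JobDL2 : Prop := ∀ (n : ℕ) (F : Type) [Field F] [Fintype F] (q : ℕ) (Θ : Set (Jm n F))
  (H Q E : Subgroup (GL (Fin n) F)) (g : GL (Fin n) F), Cl Θ H →
  ¬ Cf false q (ringChar F) Θ H Q E g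

theorem top2 (am : JobAM.{u, v}) (tr : JobTR.{u}) (bl : JobBrL2) (bl0 : JobBrL0) (bu : JobBrU)
    (bu0 : JobBrU0) (ol : JobOutL) (ou : JobOutU) (dl : JobDL2) (du : JobD true)
    (d0 : ∀ u, JobD0 u) (xs : JobXS) (xa : JobXA) {G : Type u} {Ω : Type v} [Group G] [Finite G]
    [MulAction G Ω] [FaithfulSMul G Ω] [Finite Ω] (N : Subgroup G) (hNn : N.Normal)
    (hNs : IsSimpleGroup N) (hNc : centralizer (N : Set G) = ⊥) (hsoc : IsPSL N ∨ IsPSU N)
    (hprim : MulAction.IsPreprimitive G Ω) (a b : Ω) (d : ℕ)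
    (hd : Nat.card (MulAction.orbit (MulAction.stabilizer G a) b) = d) (h2 : 2 ≤ d) :
    Nat.card (MulAction.stabilizer G a) ≤ d.factorial * (d - 1).factorial ^ d := by
  by_contra hlt
  have hN : N ≠ ⊥ := (Subgroup.nontrivial_iff_ne_bot N).1 hNs.toNontrivial
  obtain ⟨hbig, A, p, g, hA⟩ := am G Ω N hNn hN hprim a b d hd h2 (not_le.1 hlt)
  have key : ∀ (n : ℕ) (F : Type) [Field F] [Fintype F] (u : Bool) (q : ℕ) (Θ : Set (Jm n F))
      (H Q E : Subgroup (GL (Fin n) F)) (g : GL (Fin n) F), Cf u q p Θ H Q E g →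
      p ≠ ringChar F → Small u q H := by
    intro n F _ _ u q Θ H Q E g c hp
    by_cases hab : ∀ a ∈ E, ∀ b ∈ E, a * b = b * a
    · exact xa n F u q p Θ H Q E g c hp hab
    · push Not at hab
      exact xs n F u q p Θ H Q E g c hp hab
  rcases hsoc with ⟨F, _, _, n, h1, h3, e⟩ | ⟨F, _, _, n, q, h1, h3, h4, e⟩
  · have P : Par n F false (Fintype.card F) := ⟨by simp, h1, fun h => ⟨rfl, h3 h⟩, by simp⟩
    obtain ⟨G', H', A', g', hA', hc⟩ := tr G N _ A p g hNn hNc hA _ e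
    refine absurd (hc ▸ (?_ : Nat.card H' ≤ 31104)) (not_le.2 hbig)
    by_cases hi : A' ≤ inndiagPSL n F
    · obtain ⟨Θ, H₀, Q, E, g₀, c, cl, hs⟩ := bl n F _ P G' H' A' p g' hA' hi
      by_cases hp : p = ringChar F
      · exact absurd (hp ▸ c) (dl n F _ Θ H₀ Q E g₀ cl)
      · exact hs (key n F _ _ Θ H₀ Q E g₀ c hp)
    by_cases hp : p = ringChar F
    · obtain ⟨Θ, H₀, Q, E, j, c, o⟩ := bl0 n F _ P G' H' A' p g' hA' hi hp
      exact absurd o (d0 false n F _ Θ H₀ Q E j (hp ▸ c))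
    · exact ol n F _ P G' H' A' p g' hA' hi hp
  · have P : Par n F true q := ⟨by simpa using h1, by omega, fun h => by omega, fun _ => h4⟩
    obtain ⟨G', H', A', g', hA', hc⟩ := tr G N _ A p g hNn hNc hA _ e
    refine absurd (hc ▸ (?_ : Nat.card H' ≤ 31104)) (not_le.2 hbig)
    by_cases hi : A' ≤ inndiagPSU n F q
    · obtain ⟨Θ, H₀, Q, E, g₀, c, hs⟩ := bu n F _ P G' H' A' p g' hA' hi
      by_cases hp : p = ringChar F
      · exact absurd (hp ▸ c) (du n F _ Θ H₀ Q E g₀)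
      · exact hs (key n F _ _ Θ H₀ Q E g₀ c hp)
    by_cases hp : p = ringChar F
    · obtain ⟨Θ, H₀, Q, E, j, c, o⟩ := bu0 n F _ P G' H' A' p g' hA' hi hp
      exact absurd o (d0 true n F _ Θ H₀ Q E j (hp ▸ c))
    · exact ou n F _ P G' H' A' p g' hA' hi hp

end H0.Sim
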